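import Cfsg.Agent.H36.AutEngineBase

/-!
A kernel checkable certificate that a transitive permutation group of known order is covered, apart from
the identity, by the products of two conjugates of one element.

The stabiliser of the point `0` is written as a product of three sets of transversal elements; every
element is conjugate to one mapping `0` to a representative of an orbit of the stabiliser; for each of
these elements two conjugates are given whose product agrees with it on a faithful base.
-/

set_option autoImplicit false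

open Equiv Cfsg.Agent.H16 Cfsg.Agent.H36

namespace Cfsg.Agent.H46.TitsCover

/-- A family of named permutations: the packed maps and their entries in the program. -/
structure Fam where
  /-- the packed maps -/
  T : NTree
  /-- the entries -/
  idx : List ℕ

/-- The data of a certificate. -/
structure Dat where
  /-- the degree -/
  n : ℕ
  /-- the field width -/
  w : ℕ
  /-- generators -/
  gens : List ℕ
  /-- the number of entries of the program -/
  ns : ℕ
  /-- the entries -/
  el : NTree
  /-- their derivations -/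
  ops : PArr
  /-- the element -/
  x : ℕ
  /-- its entry -/
  xi : ℕ
  /-- its odd period -/
  d : ℕ
  /-- conjugators -/
  S : Fam
  /-- their inverses -/
  Si : Fam
  /-- first transversal -/
  A : Fam
  /-- its inverses -/
  Ai : Fam
  /-- second transversal -/
  B : Fam
  /-- its inverses -/
  Bi : Fam
  /-- last transversal -/
  C : Fam
  /-- its inverses -/
  Ci : Fam
  /-- representatives of the suborbits -/
  R : Fam
  /-- elements fixing `0` -/
  H : Fam
  /-- the second base point -/
  b2 : ℕ
  /-- the third base point -/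
  b3 : ℕ
  /-- the fourth base point -/
  b4 : ℕ
  /-- a spanning tree of the generators -/
  tree : PArr
  /-- a spanning forest of the stabiliser -/
  forest : PArr

namespace Dat

variable (D : Dat)

/-- Image of a point under a packed map. -/
noncomputable def ap (P x : ℕ) : ℕ := pim D.w P x

/-- A test on all points. -/
noncomputable def allPts (p : ℕ → Bool) : Bool := allFrom p D.n 0

/-- The test of an entry of the program. -/
noncomputable def opOk (k : ℕ) : Bool :=
  forceNat (D.el.get k) fun P => forceNat (D.ops.get 48 k) fun o =>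
  forceNat (bitField o 0 4) fun t => forceNat (bitField o 4 16) fun a => forceNat (bitField o 20 16) fun b =>
  bif Nat.beq t 0 then
    forceNat (getN D.gens a) fun A => Nat.blt a D.gens.length && D.allPts fun x => Nat.beq (D.ap P x) (D.ap A x)
  else bif Nat.beq t 1 then
    forceNat (D.el.get a) fun A => forceNat (D.el.get b) fun B =>
      Nat.blt a k && Nat.blt b k && D.allPts fun x => Nat.beq (D.ap P x) (D.ap A (D.ap B x))
  else bif Nat.beq t 2 then
    forceNat (D.el.get a) fun A =>
      Nat.blt a k && D.allPts fun x => Nat.blt (D.ap P x) D.n && Nat.beq (D.ap A (D.ap P x)) x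
  else D.allPts fun x => Nat.beq (D.ap P x) x

/-- All entries. -/
noncomputable def opsOk : Bool := allFrom D.opOk D.ns 0

/-- A family consists of entries. -/
noncomputable def famOk (F : Fam) : Bool :=
  allFrom (fun i => Nat.blt (getN F.idx i) D.ns && Nat.beq (F.T.get i) (D.el.get (getN F.idx i))) F.idx.length 0

/-- A family of inverses. -/
noncomputable def invOk (F G : Fam) : Bool :=
  allFrom (fun i => forceNat (F.T.get i) fun P => forceNat (G.T.get i) fun Q =>
    D.allPts fun x => Nat.beq (D.ap Q (D.ap P x)) x) F.idx.length 0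

/-- A family fixes a point. -/
noncomputable def fixOk (F : Fam) (b : ℕ) : Bool :=
  allFrom (fun i => Nat.beq (D.ap (F.T.get i) b) b) F.idx.length 0

/-- The images of a point under a family are distinct. -/
noncomputable def distOk (F : Fam) (b : ℕ) : Bool :=
  allFrom (fun i => forceNat (D.ap (F.T.get i) b) fun p =>
    allFrom (fun k => !(Nat.beq (D.ap (F.T.get k) b) p)) i 0) F.idx.length 0

/-- The first entry is the identity. -/
noncomputable def headOk (F : Fam) : Bool :=
  forceNat (F.T.get 0) fun P => Nat.blt 0 F.idx.length && D.allPts fun x => Nat.beq (D.ap P x) x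

/-- The test of the spanning tree at a point. -/
noncomputable def treeOk (t : ℕ) : Bool :=
  forceNat (D.tree.get 48 t) fun v => forceNat (bitField v 0 16) fun g => forceNat (bitField v 16 16) fun p =>
  bif Nat.beq t 0 then true else
    Nat.blt g D.gens.length && Nat.blt p D.n && Nat.blt (bitField (D.tree.get 48 p) 32 16) (bitField v 32 16) &&
      Nat.beq (D.ap (getN D.gens g) p) t

/-- The test of the forest at a point. -/
noncomputable def forestOk (t : ℕ) : Bool :=
  forceNat (D.forest.get 48 t) fun v => forceNat (bitField v 0 16) fun g => forceNat (bitField v 16 16) fun p =>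
  forceNat (bitField v 32 16) fun r =>
  bif Nat.beq r 0 then Nat.blt g D.R.idx.length && Nat.beq (D.ap (D.R.T.get g) 0) t else
    Nat.blt g D.H.idx.length && Nat.blt p D.n && Nat.blt (bitField (D.forest.get 48 p) 32 16) r &&
      Nat.beq (D.ap (D.H.T.get g) p) t

/-- The inexpensive checks. -/
noncomputable def frameOk : Bool :=
  Nat.beq (D.A.idx.length * (D.B.idx.length * D.C.idx.length) * D.n) (D.n * 5120) &&
  Nat.blt 0 D.n && Nat.blt D.b2 D.n && Nat.blt D.b3 D.n && Nat.blt D.b4 D.n &&
  Nat.blt D.xi D.ns && Nat.beq D.x (D.el.get D.xi) && Nat.beq (Nat.mod D.d 2) 1 &&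
  D.allPts (fun y => Nat.beq (iterPt (D.ap D.x) D.d y) y) &&
  D.famOk D.S && D.famOk D.A && D.famOk D.B && D.famOk D.C && D.famOk D.R && D.famOk D.H &&
  D.invOk D.S D.Si && D.invOk D.A D.Ai && D.invOk D.B D.Bi && D.invOk D.C D.Ci &&
  D.fixOk D.A 0 && D.fixOk D.B 0 && D.fixOk D.C 0 && D.fixOk D.H 0 &&
  D.fixOk D.B D.b2 && D.fixOk D.C D.b2 && D.fixOk D.C D.b3 &&
  D.distOk D.A D.b2 && D.distOk D.B D.b3 && D.distOk D.C D.b4 &&
  D.headOk D.A && D.headOk D.B && D.headOk D.C &&
  allFrom D.treeOk D.n 0 && allFrom D.forestOk D.n 0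

/-- The test of one product at one point. -/
noncomputable def ptOk (P A B C S₁ S₁' T₁ T₁' U V W U' V' W' S₂ S₂' T₂ T₂' b : ℕ) : Bool :=
  Nat.beq (D.ap P (D.ap A (D.ap B (D.ap C b))))
    (forceNat (D.ap U (D.ap V (D.ap W (D.ap T₂' (D.ap S₂' (D.ap D.x (D.ap S₂ (D.ap T₂
      (D.ap W' (D.ap V' (D.ap U' b))))))))))) fun y =>
      D.ap T₁' (D.ap S₁' (D.ap D.x (D.ap S₁ (D.ap T₁ y)))))

/-- The test of one product, with its witness. -/
noncomputable def cellOk (P A B C v : ℕ) : Bool :=
  bif Nat.beq (bitField v 33 1) 1 then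
    Nat.beq (D.ap P (D.ap A (D.ap B (D.ap C 0)))) 0 && Nat.beq (D.ap P (D.ap A (D.ap B (D.ap C D.b2)))) D.b2 &&
    Nat.beq (D.ap P (D.ap A (D.ap B (D.ap C D.b3)))) D.b3 && Nat.beq (D.ap P (D.ap A (D.ap B (D.ap C D.b4)))) D.b4
  else
    forceNat (bitField v 0 5) fun a => forceNat (bitField v 5 5) fun b =>
    forceNat (bitField v 10 5) fun c => forceNat (bitField v 15 5) fun d =>
    forceNat (bitField v 20 5) fun i => forceNat (bitField v 25 3) fun k => forceNat (bitField v 28 5) fun l =>
    Nat.blt a D.S.idx.length && Nat.blt b D.S.idx.length && Nat.blt c D.S.idx.length && Nat.blt d D.S.idx.length &&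
    Nat.blt i D.A.idx.length && Nat.blt k D.B.idx.length && Nat.blt l D.C.idx.length &&
    forceNat (D.S.T.get a) fun S₁ => forceNat (D.Si.T.get a) fun S₁' =>
    forceNat (D.S.T.get b) fun T₁ => forceNat (D.Si.T.get b) fun T₁' =>
    forceNat (D.S.T.get c) fun S₂ => forceNat (D.Si.T.get c) fun S₂' =>
    forceNat (D.S.T.get d) fun T₂ => forceNat (D.Si.T.get d) fun T₂' =>
    forceNat (D.A.T.get i) fun U => forceNat (D.Ai.T.get i) fun U' =>
    forceNat (D.B.T.get k) fun V => forceNat (D.Bi.T.get k) fun V' =>
    forceNat (D.C.T.get l) fun W => forceNat (D.Ci.T.get l) fun W' =>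
    D.ptOk P A B C S₁ S₁' T₁ T₁' U V W U' V' W' S₂ S₂' T₂ T₂' 0 &&
    D.ptOk P A B C S₁ S₁' T₁ T₁' U V W U' V' W' S₂ S₂' T₂ T₂' D.b2 &&
    D.ptOk P A B C S₁ S₁' T₁ T₁' U V W U' V' W' S₂ S₂' T₂ T₂' D.b3 &&
    D.ptOk P A B C S₁ S₁' T₁ T₁' U V W U' V' W' S₂ S₂' T₂ T₂' D.b4

/-- The test of all products of one suborbit with first factor in a range. -/
noncomputable def blockOk (j : ℕ) (rows : List ℕ) (lo m : ℕ) : Bool :=
  forceNat (D.R.T.get j) fun P =>
  allFrom (fun i => forceNat (D.A.T.get i) fun A =>
    allFrom (fun k => forceNat (D.B.T.get k) fun B => forceNat (getN rows (i * D.B.idx.length + k)) fun v =>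
      allFrom (fun l => forceNat (D.C.T.get l) fun C => forceNat (bitField v (36 * l) 36) fun f =>
        D.cellOk P A B C f) D.C.idx.length 0) D.B.idx.length 0) m lo

/-- The packed map of a permutation. -/
def Rep (g : Perm (Fin D.n)) (P : ℕ) : Prop := ∀ x : Fin D.n, ((g x : Fin D.n) : ℕ) = D.ap P x

variable {D}

theorem pts_spec {p : ℕ → Bool} (h : D.allPts p = true) (x : Fin D.n) : p x = true :=
  allFrom_spec h x (Nat.zero_le _) (by simp)

theorem pts_eq {f g : ℕ → ℕ} (h : D.allPts (fun x => Nat.beq (f x) (g x)) = true) (x : Fin D.n) : f x = g x :=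
  Nat.eq_of_beq_eq_true (pts_spec h x)

theorem Rep.eq {g : Perm (Fin D.n)} {P : ℕ} (h : D.Rep g P) {x : Fin D.n} {a : ℕ} (ha : (x : ℕ) = a) :
    ((g x : Fin D.n) : ℕ) = D.ap P a := ha ▸ h x

theorem mem_of_op (σ : Fin D.gens.length → Perm (Fin D.n)) (hσ : ∀ c, D.Rep (σ c) (getN D.gens c))
    (h : D.opsOk = true) : ∀ k, k < D.ns → ∃ g ∈ Subgroup.closure (Set.range σ), D.Rep g (D.el.get k) := by
  intro k
  induction k using Nat.strong_induction_on with
  | h k ih =>
    intro hk
    have h := allFrom_spec h k (Nat.zero_le _) (by omega)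
    simp only [opOk, forceNat_eq] at h
    generalize hr : bitField (D.ops.get 48 k) 4 16 = a at h
    generalize bitField (D.ops.get 48 k) 20 16 = b at h
    by_cases h0 : Nat.beq (bitField (D.ops.get 48 k) 0 4) 0 = true
    · rw [h0, cond_true, Bool.and_eq_true, Nat.blt_eq] at h
      exact ⟨σ ⟨a, h.1⟩, Subgroup.subset_closure ⟨_, rfl⟩, fun x => (hσ ⟨a, h.1⟩ x).trans (pts_eq h.2 x).symm⟩
    · rw [Bool.eq_false_iff.2 h0, cond_false] at h
      by_cases h1 : Nat.beq (bitField (D.ops.get 48 k) 0 4) 1 = true
      · rw [h1, cond_true] at h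
        simp only [Bool.and_eq_true, Nat.blt_eq] at h
        obtain ⟨⟨ha, hb⟩, hx⟩ := h
        obtain ⟨g, hg, hgr⟩ := ih _ ha (lt_trans ha hk)
        obtain ⟨g', hg', hgr'⟩ := ih _ hb (lt_trans hb hk)
        exact ⟨g * g', mul_mem hg hg', fun x => by rw [Perm.mul_apply, hgr, hgr', pts_eq hx x]⟩
      · rw [Bool.eq_false_iff.2 h1, cond_false] at h
        by_cases h2 : Nat.beq (bitField (D.ops.get 48 k) 0 4) 2 = true
        · rw [h2, cond_true] at h
          simp only [Bool.and_eq_true, Nat.blt_eq] at h
          obtain ⟨ha, hx⟩ := h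
          obtain ⟨g, hg, hgr⟩ := ih _ ha (lt_trans ha hk)
          refine ⟨g⁻¹, inv_mem hg, fun x => ?_⟩
          have := pts_spec hx x
          simp only [Bool.and_eq_true, Nat.blt_eq] at this
          obtain ⟨hy, he⟩ := this
          have : g ⟨_, hy⟩ = x := Fin.ext ((hgr.eq rfl).trans (Nat.eq_of_beq_eq_true he))
          rw [show g⁻¹ x = ⟨_, hy⟩ from Perm.inv_eq_iff_eq.2 this.symm]
        · rw [Bool.eq_false_iff.2 h2, cond_false] at h
          exact ⟨1, one_mem _, fun x => by simpa using (pts_eq h x).symm⟩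

end Dat

end Cfsg.Agent.H46.TitsCover
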