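import Cfsg.Agent.H46.TitsCover.Data
import Cfsg.Agent.H46.TitsCover.Wit

/-! The products over suborbit 0. -/

set_option autoImplicit false
set_option maxRecDepth 100000

namespace Cfsg.Agent.H46.TitsCover

theorem block0 : dat.blockOk 0 rows0 0 20 = true := by decide +kernel

end Cfsg.Agent.H46.TitsCover
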