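import Cfsg.Agent.H46.TitsCover.Base

/-!
Soundness of the covering certificate.
-/

set_option autoImplicit false

open Equiv Cfsg.Agent.H16 Cfsg.Agent.H36

namespace Cfsg.Agent.H46.TitsCover.Dat

variable {D : Dat} (G : Subgroup (Perm (Fin D.n))) (σ : Fin D.gens.length → Perm (Fin D.n))

/-- Elements of `G` named by a family, fixing given points. -/
theorem fam_spec (hmem : ∀ k, k < D.ns → ∃ g ∈ G, D.Rep g (D.el.get k)) {F : Fam} (h : D.famOk F = true) :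
    ∃ f : ℕ → ↥G, ∀ i, i < F.idx.length → D.Rep (f i : Perm (Fin D.n)) (F.T.get i) := by
  have : ∀ i, ∃ g : ↥G, i < F.idx.length → D.Rep (g : Perm (Fin D.n)) (F.T.get i) := fun i => by
    by_cases hi : i < F.idx.length
    · have h := allFrom_spec h i (Nat.zero_le _) (by omega)
      simp only [Bool.and_eq_true, Nat.blt_eq] at h
      obtain ⟨g, hg, hr⟩ := hmem _ h.1
      exact ⟨⟨g, hg⟩, fun _ => by rw [Nat.eq_of_beq_eq_true h.2]; exact hr⟩
    · exact ⟨1, fun h => absurd h hi⟩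
  choose f hf using this
  exact ⟨f, hf⟩

theorem inv_spec {F F' : Fam} (h : D.invOk F F' = true) (f : ℕ → ↥G)
    (hf : ∀ i, i < F.idx.length → D.Rep (f i : Perm (Fin D.n)) (F.T.get i)) {i : ℕ} (hi : i < F.idx.length) :
    D.Rep ((f i)⁻¹ : ↥G).1 (F'.T.get i) := by
  intro x
  have h := allFrom_spec h i (Nat.zero_le _) (by omega)
  simp only [forceNat_eq] at h
  obtain ⟨y, rfl⟩ := (f i).1.surjective x
  rw [Subgroup.coe_inv, hf i hi y, pts_eq h y]
  simp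

theorem fix_spec {F : Fam} {b : ℕ} (hb : b < D.n) (h : D.fixOk F b = true) (f : ℕ → ↥G)
    (hf : ∀ i, i < F.idx.length → D.Rep (f i : Perm (Fin D.n)) (F.T.get i)) {i : ℕ} (hi : i < F.idx.length) :
    (f i : Perm (Fin D.n)) ⟨b, hb⟩ = ⟨b, hb⟩ :=
  Fin.ext ((hf i hi ⟨b, hb⟩).trans (Nat.eq_of_beq_eq_true (allFrom_spec h i (Nat.zero_le _) (by omega))))

theorem dist_spec {F : Fam} {b : ℕ} (hb : b < D.n) (h : D.distOk F b = true) (f : ℕ → ↥G)
    (hf : ∀ i, i < F.idx.length → D.Rep (f i : Perm (Fin D.n)) (F.T.get i)) {i k : ℕ} (hi : i < F.idx.length)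
    (hk : k < F.idx.length) (he : (f i : Perm (Fin D.n)) ⟨b, hb⟩ = (f k : Perm (Fin D.n)) ⟨b, hb⟩) : i = k := by
  wlog hle : k ≤ i generalizing i k
  · exact (this hk hi he.symm (by omega)).symm
  by_contra hne
  have h := allFrom_spec h i (Nat.zero_le _) (by omega)
  simp only [forceNat_eq] at h
  have h := allFrom_spec h k (Nat.zero_le _) (by omega)
  have he' : D.ap (F.T.get k) b = D.ap (F.T.get i) b :=
    ((hf k hk ⟨b, hb⟩).symm.trans (congrArg Fin.val he.symm)).trans (hf i hi ⟨b, hb⟩)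
  simp [he'] at h

theorem head_spec {F : Fam} (h : D.headOk F = true) (f : ℕ → ↥G)
    (hf : ∀ i, i < F.idx.length → D.Rep (f i : Perm (Fin D.n)) (F.T.get i)) :
    0 < F.idx.length ∧ f 0 = 1 := by
  simp only [headOk, forceNat_eq, Bool.and_eq_true, Nat.blt_eq] at h
  refine ⟨h.1, Subtype.ext (Equiv.ext fun x => Fin.ext ?_)⟩
  rw [hf 0 h.1 x, pts_eq h.2 x]
  rfl

/-- Every element is conjugate into a listed product. -/
theorem covers (hG : G = Subgroup.closure (Set.range σ)) (hσ : ∀ c, D.Rep (σ c) (getN D.gens c))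
    (hcard : Nat.card G = D.n * 5120) (hops : D.opsOk = true) (hfr : D.frameOk = true)
    (hcell : ∀ j, j < D.R.idx.length → ∀ i, i < D.A.idx.length → ∃ rows : List ℕ, D.blockOk j rows i 1 = true) :
    ∃ x : ↥G, Odd (orderOf x) ∧ ∀ g : ↥G, g ≠ 1 → ∃ u v : ↥G, g = (u * x * u⁻¹) * (v * x * v⁻¹) := by
  classical
  have hmem : ∀ k, k < D.ns → ∃ g ∈ G, D.Rep g (D.el.get k) := hG ▸ mem_of_op σ hσ hops
  have hσG : ∀ c, σ c ∈ G := fun c => hG ▸ Subgroup.subset_closure ⟨c, rfl⟩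
  simp only [frameOk, Bool.and_eq_true, Nat.blt_eq] at hfr
  obtain ⟨⟨⟨⟨⟨⟨⟨⟨⟨⟨⟨⟨⟨⟨⟨⟨⟨⟨⟨⟨⟨⟨⟨⟨⟨⟨⟨⟨⟨⟨⟨⟨⟨hN, hn⟩, hb2⟩, hb3⟩, hb4⟩, hxi⟩, hx⟩, hd⟩, hxd⟩, hfS⟩, hfA⟩, hfB⟩, hfC⟩, hfR⟩, hfH⟩,
    hiS⟩, hiA⟩, hiB⟩, hiC⟩, hzA⟩, hzB⟩, hzC⟩, hzH⟩, hzB2⟩, hzC2⟩, hzC3⟩, hdA⟩, hdB⟩, hdC⟩, hhA⟩, hhB⟩, hhC⟩,
    htree⟩, hforest⟩ := hfr
  haveI : NeZero D.n := ⟨by omega⟩
  set o : Fin D.n := ⟨0, hn⟩
  obtain ⟨x₀, hx₀G, hx₀⟩ := hmem _ hxi
  rw [← Nat.eq_of_beq_eq_true hx] at hx₀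
  set x : ↥G := ⟨x₀, hx₀G⟩
  have hpow : x ^ D.d = 1 := by
    refine Subtype.ext (Equiv.ext fun y => Fin.ext ?_)
    have key : ∀ (m : ℕ) (y : Fin D.n), iterPt (D.ap D.x) m y = ((x₀ ^ m) y : Fin D.n) := by
      intro m y
      induction m with
      | zero => simp [iterPt]
      | succ m ih =>
        show forceNat (iterPt (D.ap D.x) m y) (D.ap D.x) = _
        rw [forceNat_eq, ih, pow_succ', Perm.mul_apply, hx₀]
    have h1 := key D.d y
    rw [pts_eq hxd y] at h1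
    simpa [x] using h1.symm
  obtain ⟨S, hS⟩ := fam_spec G hmem hfS
  obtain ⟨A, hA⟩ := fam_spec G hmem hfA
  obtain ⟨B, hB⟩ := fam_spec G hmem hfB
  obtain ⟨C, hC⟩ := fam_spec G hmem hfC
  obtain ⟨R, hR⟩ := fam_spec G hmem hfR
  obtain ⟨H, hH⟩ := fam_spec G hmem hfH
  -- transitivity
  have hreach : ∀ r (t : Fin D.n), bitField (D.tree.get 48 t) 32 16 = r → ∃ g : ↥G, (g : Perm (Fin D.n)) o = t := by
    intro r
    induction r using Nat.strong_induction_on with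
    | h r ih =>
      intro t hr
      by_cases ht : (t : ℕ) = 0
      · exact ⟨1, Fin.ext (by simp [o, ht])⟩
      · have h := allFrom_spec htree t (Nat.zero_le _) (by omega)
        simp only [treeOk, forceNat_eq, show Nat.beq (t : ℕ) 0 = false by simpa [Bool.eq_false_iff] using ht,
          cond_false, Bool.and_eq_true, Nat.blt_eq] at h
        obtain ⟨⟨⟨hg, hp⟩, hlt⟩, he⟩ := h
        obtain ⟨g, hgo⟩ := ih _ (hr ▸ hlt) ⟨_, hp⟩ rfl
        refine ⟨⟨_, hσG ⟨_, hg⟩⟩ * g, Fin.ext ?_⟩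
        rw [Subgroup.coe_mul, Perm.mul_apply, hgo, hσ]
        exact Nat.eq_of_beq_eq_true he
  have horb : MulAction.orbit G o = Set.univ := Set.eq_univ_of_forall fun t => by
    obtain ⟨g, hg⟩ := hreach _ t rfl
    exact ⟨g, hg⟩
  -- the stabiliser
  set St := AutEngine.Ctx.fixing (D := ⟨D.n, D.w, D.gens, D.ns, D.el, D.ops⟩) G o
  have hSt : Nat.card St = 5120 := by
    have h := AutEngine.Ctx.card_orbit_mul (D := ⟨D.n, D.w, D.gens, D.ns, D.el, D.ops⟩) G o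
    rw [horb, Nat.card_coe_set_eq, Set.ncard_univ, Nat.card_fin, hcard] at h
    exact (Nat.eq_of_mul_eq_mul_left hn h).symm
  let ι := Fin D.A.idx.length × Fin D.B.idx.length × Fin D.C.idx.length
  let φ : ι → St := fun p =>
    ⟨((A p.1 * B p.2.1 * C p.2.2 : ↥G) : Perm (Fin D.n)), (A p.1 * B p.2.1 * C p.2.2 : ↥G).2, by
      show ((A p.1 * B p.2.1 * C p.2.2 : ↥G) : Perm (Fin D.n)) o = o
      simp only [Subgroup.coe_mul, Perm.mul_apply]
      rw [fix_spec G hn hzC C hC p.2.2.isLt, fix_spec G hn hzB B hB p.2.1.isLt, fix_spec G hn hzA A hA p.1.isLt]⟩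
  have hφ : Function.Injective φ := by
    rintro ⟨i, k, l⟩ ⟨i', k', l'⟩ he
    have hv : ∀ y, ((A i * B k * C l : ↥G) : Perm (Fin D.n)) y = ((A i' * B k' * C l' : ↥G) : Perm (Fin D.n)) y :=
      fun y => congrArg (fun z : St => (z : Perm (Fin D.n)) y) he
    simp only [Subgroup.coe_mul, Perm.mul_apply] at hv
    have h2 := hv ⟨_, hb2⟩
    rw [fix_spec G hb2 hzC2 C hC l.isLt, fix_spec G hb2 hzC2 C hC l'.isLt, fix_spec G hb2 hzB2 B hB k.isLt,
      fix_spec G hb2 hzB2 B hB k'.isLt] at h2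
    obtain rfl : i = i' := Fin.ext (dist_spec G hb2 hdA A hA i.isLt i'.isLt h2)
    have h3 := hv ⟨_, hb3⟩
    rw [fix_spec G hb3 hzC3 C hC l.isLt, fix_spec G hb3 hzC3 C hC l'.isLt] at h3
    obtain rfl : k = k' := Fin.ext (dist_spec G hb3 hdB B hB k.isLt k'.isLt ((A i : Perm (Fin D.n)).injective h3))
    have h4 := hv ⟨_, hb4⟩
    obtain rfl : l = l' := Fin.ext (dist_spec G hb4 hdC C hC l.isLt l'.isLt
      ((B k : Perm (Fin D.n)).injective ((A i : Perm (Fin D.n)).injective h4)))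
    rfl
  have hcι : Nat.card ι = Nat.card St := by
    have hN' : D.A.idx.length * (D.B.idx.length * D.C.idx.length) * D.n = D.n * 5120 := Nat.eq_of_beq_eq_true hN
    rw [hSt, Nat.card_prod, Nat.card_prod, Nat.card_fin, Nat.card_fin, Nat.card_fin]
    rw [mul_comm _ D.n] at hN'
    exact Nat.eq_of_mul_eq_mul_left hn hN'
  have hφb : Function.Bijective φ := (Nat.bijective_iff_injective_and_card φ).2 ⟨hφ, hcι⟩
  -- elements fixing the base are trivial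
  have hfaith : ∀ c : ↥G, (c : Perm (Fin D.n)) o = o → (c : Perm (Fin D.n)) ⟨_, hb2⟩ = ⟨_, hb2⟩ →
      (c : Perm (Fin D.n)) ⟨_, hb3⟩ = ⟨_, hb3⟩ → (c : Perm (Fin D.n)) ⟨_, hb4⟩ = ⟨_, hb4⟩ → c = 1 := by
    intro c h0 h2 h3 h4
    obtain ⟨⟨i, k, l⟩, hp⟩ := hφb.2 ⟨c.1, c.2, h0⟩
    have hc : A i * B k * C l = c := Subtype.ext (congrArg (fun z : St => (z : Perm (Fin D.n))) hp)
    subst hc
    obtain ⟨hA0, eA⟩ := head_spec G hhA A hA
    obtain ⟨hB0, eB⟩ := head_spec G hhB B hB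
    obtain ⟨hC0, eC⟩ := head_spec G hhC C hC
    simp only [Subgroup.coe_mul, Perm.mul_apply] at h2 h3 h4
    rw [fix_spec G hb2 hzC2 C hC l.isLt, fix_spec G hb2 hzB2 B hB k.isLt] at h2
    have hi : (i : ℕ) = 0 := dist_spec G hb2 hdA A hA i.isLt hA0 (by rw [h2, eA]; rfl)
    rw [fix_spec G hb3 hzC3 C hC l.isLt, hi, eA, Subgroup.coe_one, Perm.one_apply] at h3
    have hk : (k : ℕ) = 0 := dist_spec G hb3 hdB B hB k.isLt hB0 (by rw [h3, eB]; rfl)
    rw [hi, eA, hk, eB, Subgroup.coe_one, Perm.one_apply, Perm.one_apply] at h4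
    have hl : (l : ℕ) = 0 := dist_spec G hb4 hdC C hC l.isLt hC0 (by rw [h4, eC]; rfl)
    rw [hi, hk, hl, eA, eB, eC, one_mul, one_mul]
  -- conjugation onto representatives
  have hconj : ∀ r (g : ↥G), bitField (D.forest.get 48 ((g : Perm (Fin D.n)) o : Fin D.n)) 32 16 = r →
      ∃ h : ↥G, ∃ j, j < D.R.idx.length ∧ ((h * g * h⁻¹ : ↥G) : Perm (Fin D.n)) o = (R j : Perm (Fin D.n)) o := by
    intro r
    induction r using Nat.strong_induction_on with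
    | h r ih =>
      intro g hr
      have h := allFrom_spec hforest ((g : Perm (Fin D.n)) o : Fin D.n) (Nat.zero_le _) (by omega)
      simp only [forestOk, forceNat_eq, hr] at h
      by_cases h0 : r = 0
      · subst h0
        simp only [show Nat.beq 0 0 = true from rfl, cond_true, Bool.and_eq_true, Nat.blt_eq] at h
        refine ⟨1, _, h.1, ?_⟩
        rw [one_mul, inv_one, mul_one]
        exact (Fin.ext ((hR _ h.1 o).trans (Nat.eq_of_beq_eq_true h.2))).symm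
      · simp only [show Nat.beq r 0 = false by simpa [Bool.eq_false_iff] using h0, cond_false, Bool.and_eq_true,
          Nat.blt_eq] at h
        obtain ⟨⟨⟨hs, hp⟩, hlt⟩, he⟩ := h
        generalize bitField (D.forest.get 48 ((g : Perm (Fin D.n)) o : Fin D.n)) 0 16 = s at hs he
        have hso : (H s : Perm (Fin D.n)) o = o := fix_spec G hn hzH H hH hs
        have hgo : (((H s)⁻¹ * g * H s : ↥G) : Perm (Fin D.n)) o = ⟨_, hp⟩ := by
          simp only [Subgroup.coe_mul, Subgroup.coe_inv, Perm.mul_apply, hso]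
          rw [Perm.inv_eq_iff_eq]
          exact Fin.ext ((Nat.eq_of_beq_eq_true he).symm.trans (hH s hs ⟨_, hp⟩).symm)
        obtain ⟨h', j, hj, hh⟩ := ih _ hlt ((H s)⁻¹ * g * H s) (by rw [hgo])
        refine ⟨h' * (H s)⁻¹, j, hj, ?_⟩
        rw [show h' * (H s)⁻¹ * g * (h' * (H s)⁻¹)⁻¹ = h' * ((H s)⁻¹ * g * H s) * h'⁻¹ by group]
        exact hh
  -- the element
  refine ⟨x, ?_, fun g hg => ?_⟩
  · exact (Nat.odd_iff.2 (Nat.eq_of_beq_eq_true hd)).of_dvd_nat (orderOf_dvd_of_pow_eq_one hpow)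
  obtain ⟨h, j, hj, hgj⟩ := hconj _ g rfl
  set g' : ↥G := h * g * h⁻¹ with hg'
  have hc0 : (((R j)⁻¹ * g' : ↥G) : Perm (Fin D.n)) o = o := by
    rw [Subgroup.coe_mul, Perm.mul_apply, hgj, Subgroup.coe_inv, Perm.inv_eq_iff_eq]
  obtain ⟨⟨i, k, l⟩, hp⟩ := hφb.2 ⟨((R j)⁻¹ * g' : ↥G).1, ((R j)⁻¹ * g' : ↥G).2, hc0⟩
  have hgdec : g' = R j * (A i * B k * C l) := by
    rw [show A i * B k * C l = (R j)⁻¹ * g' from Subtype.ext (congrArg (fun z : St => (z : Perm (Fin D.n))) hp),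
      mul_inv_cancel_left]
  obtain ⟨rows, hrows⟩ := hcell j hj i i.isLt
  simp only [blockOk, forceNat_eq] at hrows
  have hk := allFrom_spec (allFrom_spec hrows i le_rfl (by omega)) k (Nat.zero_le _) (by omega)
  have hl := allFrom_spec hk l (Nat.zero_le _) (by omega)
  generalize bitField (getN rows (i * D.B.idx.length + k)) (36 * l) 36 = f at hl
  have hval : ∀ b (hb : b < D.n), ((g' : Perm (Fin D.n)) ⟨b, hb⟩ : ℕ) =
      D.ap (D.R.T.get j) (D.ap (D.A.T.get i) (D.ap (D.B.T.get k) (D.ap (D.C.T.get l) b))) := fun b hb => by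
    rw [hgdec]
    simp only [Subgroup.coe_mul, Perm.mul_apply]
    rw [hR j hj, hA i i.isLt, hB k k.isLt, hC l l.isLt]
  by_cases hid : Nat.beq (bitField f 33 1) 1 = true
  · rw [cellOk, hid, cond_true] at hl
    simp only [Bool.and_eq_true] at hl
    obtain ⟨⟨⟨l0, l2⟩, l3⟩, l4⟩ := hl
    have e : g' = 1 := hfaith g' (Fin.ext ((hval 0 hn).trans (Nat.eq_of_beq_eq_true l0)))
      (Fin.ext ((hval _ hb2).trans (Nat.eq_of_beq_eq_true l2))) (Fin.ext ((hval _ hb3).trans (Nat.eq_of_beq_eq_true l3)))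
      (Fin.ext ((hval _ hb4).trans (Nat.eq_of_beq_eq_true l4)))
    refine absurd ?_ hg
    rwa [hg', conj_eq_one_iff] at e
  · rw [cellOk, Bool.eq_false_iff.2 hid, cond_false] at hl
    simp only [forceNat_eq, Bool.and_eq_true, Nat.blt_eq] at hl
    generalize bitField f 0 5 = a at hl
    generalize bitField f 5 5 = b at hl
    generalize bitField f 10 5 = c at hl
    generalize bitField f 15 5 = d at hl
    generalize bitField f 20 5 = u at hl
    generalize bitField f 25 3 = v at hl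
    generalize bitField f 28 5 = w at hl
    obtain ⟨⟨⟨⟨⟨⟨⟨ha, hb⟩, hc⟩, hd'⟩, hu⟩, hv⟩, hw⟩, ⟨⟨p0, p2⟩, p3⟩, p4⟩ := hl
    set w₁ : ↥G := (S a * S b)⁻¹
    set w₂ : ↥G := A u * B v * C w * (S c * S d)⁻¹
    set y : ↥G := (w₁ * x * w₁⁻¹) * (w₂ * x * w₂⁻¹)
    have hy : ∀ z (hz : z < D.n), D.ptOk (D.R.T.get j) (D.A.T.get i) (D.B.T.get k) (D.C.T.get l)
        (D.S.T.get a) (D.Si.T.get a) (D.S.T.get b) (D.Si.T.get b) (D.A.T.get u) (D.B.T.get v) (D.C.T.get w)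
        (D.Ai.T.get u) (D.Bi.T.get v) (D.Ci.T.get w) (D.S.T.get c) (D.Si.T.get c) (D.S.T.get d) (D.Si.T.get d) z = true →
        (g' : Perm (Fin D.n)) ⟨z, hz⟩ = (y : Perm (Fin D.n)) ⟨z, hz⟩ := by
      intro z hz h
      refine Fin.ext ?_
      simp only [ptOk, forceNat_eq] at h
      rw [hval z hz, Nat.eq_of_beq_eq_true h]
      have e : y = (S b)⁻¹ * (S a)⁻¹ * x * S a * S b * (A u * B v * C w * (S d)⁻¹ * (S c)⁻¹ * x * S c * S d *
          (C w)⁻¹ * (B v)⁻¹ * (A u)⁻¹) := by simp only [y, w₁, w₂]; group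
      rw [e]
      simp only [Subgroup.coe_mul, Perm.mul_apply]
      rw [inv_spec G hiS S hS hb, inv_spec G hiS S hS ha, show (x : Perm (Fin D.n)) = x₀ from rfl, hx₀, hS a ha,
        hS b hb, hA u hu, hB v hv, hC w hw, inv_spec G hiS S hS hd', inv_spec G hiS S hS hc, hx₀, hS c hc,
        hS d hd', inv_spec G hiC C hC hw, inv_spec G hiB B hB hv, inv_spec G hiA A hA hu]
    have e : y⁻¹ * g' = 1 := by
      refine hfaith _ ?_ ?_ ?_ ?_ <;>
        rw [Subgroup.coe_mul, Perm.mul_apply, Subgroup.coe_inv, Perm.inv_eq_iff_eq]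
      exacts [hy 0 hn p0, hy _ hb2 p2, hy _ hb3 p3, hy _ hb4 p4]
    refine ⟨h⁻¹ * w₁, h⁻¹ * w₂, ?_⟩
    have e' : h * g * h⁻¹ = y := (inv_mul_eq_one.1 e).symm
    rw [show g = h⁻¹ * (h * g * h⁻¹) * h by group, e']
    simp only [y]
    group

end Cfsg.Agent.H46.TitsCover.Dat
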