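import Cfsg.Agent.H46.TitsMult.Action
import Cfsg.Agent.H46.TitsCover.Sound
import Cfsg.Agent.H46.TitsCover.CheckFrame
import Cfsg.Agent.H46.TitsCover.Check0
import Cfsg.Agent.H46.TitsCover.Check1
import Cfsg.Agent.H46.TitsCover.Check2
import Cfsg.Agent.H46.TitsCover.Check3
import Cfsg.Agent.H46.TitsCover.Check4
import Cfsg.Agent.H46.TitsCover.Check5
import Cfsg.Agent.H46.TitsCover.Check6
import Cfsg.Agent.H46.TitsCover.Check7
import Cfsg.Agent.H46.TitsCover.Check8
import Cfsg.Agent.H46.TitsCover.Check9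

/-!
Every non-identity element of the Tits group is a product of two conjugates of one element of odd order.
-/

set_option autoImplicit false
set_option maxRecDepth 100000

namespace Cfsg.Agent.H46.TitsCover

open Equiv Cfsg.Agent.H16 Cfsg.Agent.H36

theorem blockOk_single {D : Dat} {j : ℕ} {rows : List ℕ} {m i : ℕ} (h : D.blockOk j rows 0 m = true) (hi : i < m) :
    D.blockOk j rows i 1 = true := by
  simp only [Dat.blockOk, forceNat_eq] at h ⊢
  rw [allFrom_succ, Bool.and_eq_true]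
  exact ⟨allFrom_spec h i (Nat.zero_le _) (by omega), rfl⟩

theorem cells (j : ℕ) (hj : j < 10) (i : ℕ) (hi : i < 20) : ∃ rows : List ℕ, dat.blockOk j rows i 1 = true := by
  interval_cases j
  exacts [⟨_, blockOk_single block0 hi⟩, ⟨_, blockOk_single block1 hi⟩, ⟨_, blockOk_single block2 hi⟩,
    ⟨_, blockOk_single block3 hi⟩, ⟨_, blockOk_single block4 hi⟩, ⟨_, blockOk_single block5 hi⟩,
    ⟨_, blockOk_single block6 hi⟩, ⟨_, blockOk_single block7 hi⟩, ⟨_, blockOk_single block8 hi⟩,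
    ⟨_, blockOk_single block9 hi⟩]

attribute [local irreducible] TitsMult.σG Cfsg.Lie.twistedF4 Cfsg.Lie.chevF4

theorem transport {M K : Type*} [Group M] [Group K] (e : M ≃* K)
    (h : ∃ x : K, Odd (orderOf x) ∧ ∀ g, g ≠ 1 → ∃ u v, g = (u * x * u⁻¹) * (v * x * v⁻¹)) :
    ∃ x : M, Odd (orderOf x) ∧ ∀ g, g ≠ 1 → ∃ u v, g = (u * x * u⁻¹) * (v * x * v⁻¹) := by
  obtain ⟨x, hx, h⟩ := h
  refine ⟨e.symm x, by rwa [MulEquiv.orderOf_eq], fun g hg => ?_⟩
  obtain ⟨u, v, he⟩ := h (e g) fun h1 => hg (e.injective (by rw [h1, map_one]))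
  refine ⟨e.symm u, e.symm v, e.injective ?_⟩
  simp only [map_mul, map_inv, MulEquiv.apply_symm_apply]
  exact he

theorem main : ∃ x : Cfsg.Lie.TitsGroup, Odd (orderOf x) ∧
    ∀ g, g ≠ 1 → ∃ u v, g = (u * x * u⁻¹) * (v * x * v⁻¹) :=
  transport TitsMult.equivModel
    (Dat.covers (D := dat) (Subgroup.closure (Set.range TitsMult.σG)) TitsMult.σG rfl
      TitsMult.σG_rep (by rw [← show Nat.card ↥(Subgroup.closure (Set.range TitsMult.σG)) = dat.n * 5120 from TitsMult.card_closure]; rfl)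
      opsOk frameOk (fun j hj i hi => cells j hj i hi))

end Cfsg.Agent.H46.TitsCover
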